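import Cfsg.Agent.H952.S7.Defs
import Cfsg.Agent.H882.E6Thirty
import Cfsg.Agent.H200.E6Two
import Cfsg.Agent.H944.E6Tab
import Cfsg.Agent.H333.E6Act
import Cfsg.Agent.H163.E6.Sit
import Cfsg.Agent.H931.E6.Cases
import Cfsg.Agent.H952.F4.Gen

/-!
# S5927, the threefold cover of `A₇`, characteristic 2: the numerical part (helper251; plan of helper952)
-/

set_option autoImplicit false

namespace Cfsg.Agent.H251.S7

open Cfsg Cfsg.Lie Module Equiv
open Cfsg.Agent.ChevalleyStructure.E6Min.Tables Cfsg.Agent.ChevalleyStructure.E6Min.Basic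
  Cfsg.Agent.ChevalleyStructure.E6Min.Adjoint
open Cfsg.Agent.H952.F4 (ev es sh cr tf)
open Cfsg.Agent.H163.E6
open Cfsg.Agent.H905.E6T (PD)
open Cfsg.Agent.H952.S7 (X VD yw)

universe u

/-! ### linear algebra -/

section Lin

variable {F M : Type*} [Field F] [AddCommGroup M] [Module F M] [FiniteDimensional F M]

omit [FiniteDimensional F M] in
theorem add2 (h2 : (2 : F) = 0) (v : M) : v + v = 0 := by
  rw [← two_smul F v, h2, zero_smul]

/-- an involution fixes at least half of a stable subspace, characteristic 2 -/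
theorem half_fix (h2 : (2 : F) = 0) {τ : Module.End F M} (hτ : ∀ v, τ (τ v) = v) {W : Submodule F M}
    (hW : ∀ w ∈ W, τ w ∈ W) : finrank F W ≤ 2 * finrank F ↥(W ⊓ es τ 1) := by
  let f : W →ₗ[F] M := (τ + 1).domRestrict W
  have hf : ∀ w : W, f w = τ w + w := fun w => rfl
  have hr : LinearMap.range f ≤ W ⊓ es τ 1 := by
    rintro _ ⟨w, rfl⟩
    rw [hf]
    refine ⟨W.add_mem (hW _ w.2) w.2, ?_⟩
    show _ ∈ Module.End.eigenspace τ 1
    rw [Module.End.mem_eigenspace_iff, map_add, hτ, one_smul, add_comm]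
  have hk : finrank F ↥(LinearMap.ker f) ≤ finrank F ↥(W ⊓ es τ 1) := by
    let g : LinearMap.ker f →ₗ[F] ↥(W ⊓ es τ 1) :=
      { toFun := fun w => ⟨((w : W) : M), (w : W).2, by
          show _ ∈ Module.End.eigenspace τ 1
          have h := LinearMap.mem_ker.1 w.2
          rw [hf] at h
          rw [Module.End.mem_eigenspace_iff, one_smul]
          have h3 : τ ((w : W) : M) = (τ ((w : W) : M) + ((w : W) : M)) + ((w : W) : M) := by
            rw [add_assoc, add2 h2, add_zero]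
          rw [h3, h, zero_add]⟩
        map_add' := fun a b => rfl
        map_smul' := fun c a => rfl }
    refine LinearMap.finrank_le_finrank_of_injective (f := g) fun a b hab => ?_
    exact Subtype.ext (Subtype.ext (congrArg (fun q : ↥(W ⊓ es τ 1) => (q : M)) hab))
  have h1 := LinearMap.finrank_range_add_finrank_ker f
  have h3 := Submodule.finrank_mono hr
  omega

/-- the dimension of a subspace stable under two automorphisms which commute up to a scalar of order 3 -/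
theorem three_dvd {G : Type*} [Group G] {ρ : Representation F G M} {x y : G} {ω : F} (h1 : ω ≠ 1) (h3 : ω ^ 3 = 1)
    (hc : ∀ v, ρ x (ρ y v) = ω • ρ y (ρ x v)) {W : Submodule F M}
    (hx : ∀ w ∈ W, ρ x w ∈ W) (hx' : ∀ w ∈ W, ρ x⁻¹ w ∈ W) (hy : ∀ w ∈ W, ρ y w ∈ W) (hy' : ∀ w ∈ W, ρ y⁻¹ w ∈ W) :
    3 ∣ finrank F W := by
  have hd : ∀ (g : G) (hg : ∀ w ∈ W, ρ g w ∈ W) (_ : ∀ w ∈ W, ρ g⁻¹ w ∈ W),
      LinearMap.det ((ρ g).restrict hg) ≠ 0 := by
    intro g hg hg'
    have e : (ρ g).restrict hg * (ρ g⁻¹).restrict hg' = 1 := by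
      refine LinearMap.ext fun w => Subtype.ext ?_
      show ρ g (ρ g⁻¹ w) = w
      rw [← Module.End.mul_apply, ← map_mul, mul_inv_cancel, map_one, Module.End.one_apply]
    have e2 := congrArg LinearMap.det e
    rw [map_mul, map_one] at e2
    exact left_ne_zero_of_mul_eq_one e2
  have hA := hd x hx hx'
  have hB := hd y hy hy'
  have e1 : (ρ x).restrict hx * (ρ y).restrict hy = ω • ((ρ y).restrict hy * (ρ x).restrict hx) := by
    refine LinearMap.ext fun w => Subtype.ext ?_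
    show ρ x (ρ y w) = ω • ρ y (ρ x w)
    exact hc w
  have e2 := congrArg LinearMap.det e1
  rw [map_mul, LinearMap.det_smul, map_mul] at e2
  have e3 : ω ^ finrank F W = 1 := by
    have e4 : (LinearMap.det ((ρ x).restrict hx) * LinearMap.det ((ρ y).restrict hy)) * (ω ^ finrank F W - 1) = 0 := by
      linear_combination -e2
    exact sub_eq_zero.1 ((mul_eq_zero.1 e4).resolve_left (mul_ne_zero hA hB))
  have e5 : orderOf ω = 3 := orderOf_eq_prime h3 h1
  rw [← e5]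
  exact orderOf_dvd_of_pow_eq_one e3

/-- the vectors fixed by a group of order 21 -/
theorem fix21 {G : Type*} [Group G] (ρ : Representation F G M) (h2 : (2 : F) = 0) {c y : G} (hc : c ^ 7 = 1)
    (hy : y ^ 3 = 1) (hyc : y * c = c ^ 2 * y) :
    3 * finrank F ↥(es (ρ c) 1 ⊓ es (ρ y) 1) + finrank F M ≤ 3 * ev (ρ y) 1 + ev (ρ c) 1 := by
  have hm : ∀ g h v, ρ g (ρ h v) = ρ (g * h) v := fun g h v => by rw [map_mul, Module.End.mul_apply]
  have e8 : c ^ 8 = c := by rw [pow_succ, hc, one_mul]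
  have hyp : ∀ k : ℕ, y * c ^ k = c ^ (2 * k) * y := by
    intro k
    induction k with
    | zero => simp
    | succ k ih =>
      rw [pow_succ, ← mul_assoc, ih, mul_assoc, hyc, ← mul_assoc, ← pow_add]
      congr 2
  have hcm : ∀ n : ℕ, c ^ n = c ^ (n % 7) := by
    intro n
    conv_lhs => rw [← Nat.div_add_mod n 7, pow_add, pow_mul, hc, one_pow, one_mul]
  let N : Module.End F M := ρ 1 + ρ (c ^ 1) + ρ (c ^ 2) + ρ (c ^ 3) + ρ (c ^ 4) + ρ (c ^ 5) + ρ (c ^ 6)
  have hN : ∀ v, N v = ρ 1 v + ρ (c ^ 1) v + ρ (c ^ 2) v + ρ (c ^ 3) v + ρ (c ^ 4) v + ρ (c ^ 5) v + ρ (c ^ 6) v :=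
    fun v => rfl
  have hone : ∀ v, ρ 1 v = v := fun v => by rw [map_one, Module.End.one_apply]
  have hcN : ∀ v, ρ c (N v) = N v := by
    intro v
    simp only [hN, map_add, hm]
    have e0 : c * 1 = c ^ 1 := by rw [mul_one, pow_one]
    have ek : ∀ k : ℕ, c * c ^ k = c ^ (k + 1) := fun k => (pow_succ' c k).symm
    rw [e0, ek, ek, ek, ek, ek, ek]
    norm_num only
    rw [hc]
    abel
  have hNc : ∀ v, N (ρ c v) = N v := by
    intro v
    simp only [hN, hm]
    have e0 : 1 * c = c ^ 1 := by rw [one_mul, pow_one]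
    have ek : ∀ k : ℕ, c ^ k * c = c ^ (k + 1) := fun k => (pow_succ c k).symm
    rw [e0, ek, ek, ek, ek, ek, ek]
    norm_num only
    rw [hc]
    abel
  have hyN : ∀ v, ρ y (N v) = N (ρ y v) := by
    intro v
    simp only [hN, map_add, hm]
    rw [mul_one, one_mul, hyp, hyp, hyp, hyp, hyp, hyp, hcm (2 * 4), hcm (2 * 5), hcm (2 * 6)]
    norm_num only
    abel
  have hfix : ∀ v, ρ c v = v → N v = v := by
    intro v hv
    have hk : ∀ k : ℕ, ρ (c ^ k) v = v := by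
      intro k
      induction k with
      | zero => rw [pow_zero, hone]
      | succ k ih => rw [pow_succ, ← hm, hv, ih]
    rw [hN, hone, hk, hk, hk, hk, hk, hk, add2 h2, zero_add, add2 h2, zero_add, add2 h2, zero_add]
  set U := LinearMap.ker N with hU
  set W := U ⊓ es (ρ y) 1 with hW
  have hUc : ∀ u ∈ U, ρ c u ∈ U := fun u hu => by
    rw [hU, LinearMap.mem_ker] at hu ⊢
    rw [hNc, hu]
  have hUy : ∀ u ∈ U, ρ y u ∈ U := fun u hu => by
    rw [hU, LinearMap.mem_ker] at hu ⊢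
    rw [← hyN, hu, map_zero]
  -- the first inequality
  have q1 : finrank F ↥(es (ρ c) 1 ⊓ es (ρ y) 1) + finrank F W ≤ ev (ρ y) 1 := by
    have hd : (es (ρ c) 1 ⊓ es (ρ y) 1) ⊓ W = ⊥ := by
      rw [eq_bot_iff]
      rintro v ⟨⟨hv1, -⟩, hv2, -⟩
      have h1 := Module.End.mem_eigenspace_iff.1 hv1
      rw [one_smul] at h1
      have h3 := hfix v h1
      rw [LinearMap.mem_ker.1 hv2] at h3
      rw [Submodule.mem_bot, ← h3]
    have h3 := Submodule.finrank_sup_add_finrank_inf_eq (es (ρ c) 1 ⊓ es (ρ y) 1) W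
    rw [hd, finrank_bot, add_zero] at h3
    rw [← h3]
    exact Submodule.finrank_mono (sup_le inf_le_right inf_le_right)
  -- the second inequality
  have q2 : finrank F M ≤ finrank F U + ev (ρ c) 1 := by
    have h1 := LinearMap.finrank_range_add_finrank_ker N
    have h3 : LinearMap.range N ≤ Module.End.eigenspace (ρ c) 1 := by
      rintro _ ⟨v, rfl⟩
      rw [Module.End.mem_eigenspace_iff, one_smul, hcN]
    have h4 := Submodule.finrank_mono h3
    have h5 : ev (ρ c) 1 = finrank F ↥(Module.End.eigenspace (ρ c) 1) := rfl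
    rw [← hU] at h1
    omega
  -- the third inequality
  have q3 : finrank F U ≤ 3 * finrank F W := by
    have hTr : ∀ u ∈ U, u + ρ y u + ρ y (ρ y u) ∈ W := by
      intro u hu
      refine ⟨U.add_mem (U.add_mem hu (hUy u hu)) (hUy _ (hUy u hu)), ?_⟩
      show _ ∈ Module.End.eigenspace (ρ y) 1
      rw [Module.End.mem_eigenspace_iff, one_smul, map_add, map_add]
      have h1 : ρ y (ρ y (ρ y u)) = u := by
        rw [hm, hm, show y * y * y = y ^ 3 by simp only [pow_succ, pow_zero, one_mul], hy, hone]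
      rw [h1]
      abel
    let Tr : U →ₗ[F] W :=
      { toFun := fun u => ⟨(u : M) + ρ y u + ρ y (ρ y u), hTr u u.2⟩
        map_add' := fun a b => Subtype.ext (by
          show ((a + b : U) : M) + ρ y ((a + b : U) : M) + ρ y (ρ y ((a + b : U) : M)) =
            ((a : M) + ρ y a + ρ y (ρ y a)) + ((b : M) + ρ y b + ρ y (ρ y b))
          rw [Submodule.coe_add, map_add, map_add]
          abel)
        map_smul' := fun r a => Subtype.ext (by
          show ((r • a : U) : M) + ρ y ((r • a : U) : M) + ρ y (ρ y ((r • a : U) : M)) =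
            r • ((a : M) + ρ y a + ρ y (ρ y a))
          rw [Submodule.coe_smul, map_smul, map_smul, smul_add, smul_add]) }
    let C : U →ₗ[F] U := (ρ c).restrict hUc
    let Θ : U →ₗ[F] (W × W) × W := (Tr.prod (Tr.comp C)).prod (Tr.comp (C.comp C))
    have hinj : Function.Injective Θ := by
      rw [← LinearMap.ker_eq_bot, eq_bot_iff]
      rintro ⟨a, ha⟩ h
      rw [Submodule.mem_bot]
      apply Subtype.ext
      show a = 0
      have h0 : Θ ⟨a, ha⟩ = 0 := h
      have t1 : a + ρ y a + ρ y (ρ y a) = 0 := congrArg (fun q : (W × W) × W => ((q.1.1 : W) : M)) h0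
      have t2 : ρ c a + ρ y (ρ c a) + ρ y (ρ y (ρ c a)) = 0 := congrArg (fun q : (W × W) × W => ((q.1.2 : W) : M)) h0
      have t3 : ρ c (ρ c a) + ρ y (ρ c (ρ c a)) + ρ y (ρ y (ρ c (ρ c a))) = 0 :=
        congrArg (fun q : (W × W) × W => ((q.2 : W) : M)) h0
      have hNa : N a = 0 := ha
      rw [hN] at hNa
      -- normal form
      have r1 : ∀ v, ρ y (ρ c v) = ρ (c ^ 2) (ρ y v) := fun v => by rw [hm, hyc, hm]
      have r2 : ∀ v (k : ℕ), ρ y (ρ (c ^ k) v) = ρ (c ^ (2 * k)) (ρ y v) := fun v k => by rw [hm, hyp, hm]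
      have hd : ρ y (ρ y a) = a + ρ y a := by
        have : ρ y (ρ y a) = (a + ρ y a + ρ y (ρ y a)) + (a + ρ y a) := by
          have := add2 (F := F) h2 (a + ρ y a)
          calc ρ y (ρ y a) = ρ y (ρ y a) + 0 := (add_zero _).symm
            _ = ρ y (ρ y a) + ((a + ρ y a) + (a + ρ y a)) := by rw [this]
            _ = _ := by abel
        rw [this, t1, zero_add]
      have E1 : ρ (c ^ 1) a + ρ (c ^ 2) (ρ y a) + ρ (c ^ 4) (a + ρ y a) = 0 := by
        rw [← hd, ← t2, r1, r2, pow_one]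
      have E2 : ρ (c ^ 2) a + ρ (c ^ 4) (ρ y a) + ρ (c ^ 1) (a + ρ y a) = 0 := by
        have h5 : ρ c (ρ c a) = ρ (c ^ 2) a := by rw [hm, pow_two]
        rw [← hd, ← t3, h5, r2, r2, hcm (2 * (2 * 2))]
      have X1 := congrArg (ρ (c ^ 4)) E1
      have X2 := congrArg (ρ (c ^ 1)) E1
      have X3 := congrArg (ρ (c ^ 2)) E2
      have X4 := congrArg (ρ (c ^ 4)) E2
      simp only [map_add, map_zero, hm, ← pow_add, ← mul_assoc] at X1 X2 X3 X4
      rw [hcm (4 + 4)] at X1 X4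
      norm_num only at X1 X2 X3 X4
      rw [hone] at hNa
      simp only [pow_one] at X1 X2 X3 X4 hNa
      have key : a = (a + ρ c a + ρ (c ^ 2) a + ρ (c ^ 3) a + ρ (c ^ 4) a + ρ (c ^ 5) a + ρ (c ^ 6) a) +
          ((ρ (c ^ 5) a + ρ (c ^ 6 * y) a + (ρ c a + ρ (c * y) a)) +
          (ρ (c ^ 2) a + ρ (c ^ 3 * y) a + (ρ (c ^ 5) a + ρ (c ^ 5 * y) a)) +
          (ρ (c ^ 4) a + ρ (c ^ 6 * y) a + (ρ (c ^ 3) a + ρ (c ^ 3 * y) a)) +
          (ρ (c ^ 6) a + ρ (c * y) a + (ρ (c ^ 5) a + ρ (c ^ 5 * y) a))) -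
          (2 : F) • (ρ c a + ρ (c ^ 2) a + ρ (c ^ 3) a + ρ (c ^ 4) a + (2 : F) • ρ (c ^ 5) a + ρ (c ^ 6) a +
            ρ (c ^ 6 * y) a + ρ (c * y) a + ρ (c ^ 3 * y) a + ρ (c ^ 5 * y) a) := by module
      rw [hNa, h2, zero_smul, sub_zero, zero_add] at key
      rw [key, X1, X2, X3, X4]
      simp
    have h5 := LinearMap.finrank_le_finrank_of_injective hinj
    rw [finrank_prod, finrank_prod] at h5
    omega
  omega

end Lin

/-! ### elements of `A₇` -/

abbrev A7 : Type := ↥(alternatingGroup (Fin 7))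

def s7 : A7 := ⟨c[2, 3, 4, 5, 6], by rw [Equiv.Perm.mem_alternatingGroup]; decide⟩
def t7 : A7 := ⟨c[0, 1, 2], by rw [Equiv.Perm.mem_alternatingGroup]; decide⟩
def a7 : A7 := ⟨c[0, 1] * c[2, 3], by rw [Equiv.Perm.mem_alternatingGroup]; decide⟩
/-- an involution generating `A₇` together with `s7 * t7` -/
def p7 : A7 := ⟨c[2, 3] * c[4, 6], by rw [Equiv.Perm.mem_alternatingGroup]; decide⟩
/-- `r7` conjugates `s7` to its square -/
def r7 : A7 := ⟨c[3, 4, 6, 5] * c[0, 1], by rw [Equiv.Perm.mem_alternatingGroup]; decide⟩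
/-- a 3-cycle disjoint from `t7` -/
def u7 : A7 := ⟨c[3, 4, 5], by rw [Equiv.Perm.mem_alternatingGroup]; decide⟩

theorem r7_s7 : r7 * s7 * r7⁻¹ = s7 ^ 2 := by decide +kernel
theorem s7_ne : s7 ≠ 1 := by decide +kernel
theorem c7_ne : s7 * t7 ≠ 1 := by decide +kernel
theorem p7_sq : p7 * p7 = 1 := by decide +kernel
theorem g7_six : (p7 * (s7 * t7)) ^ 6 = 1 := by decide +kernel
theorem g7_ord : orderOf ((p7 * (s7 * t7)) ^ 4) = 3 :=
  orderOf_eq_prime (by decide +kernel) (by decide +kernel)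
theorem yw7_ord : orderOf (yw s7 t7) = 3 := orderOf_eq_prime (by decide +kernel) (by decide +kernel)

theorem closure_top {x y : A7} (h : ∀ k : Fin 7, k ≠ 0 → ∃ l : List (Fin 4),
    (((l.map (![x, x⁻¹, y, y⁻¹] : Fin 4 → A7)).prod : A7) : Perm (Fin 7)) = swap 0 1 * swap 0 k) :
    Subgroup.closure {x, y} = ⊤ := by
  have hx : x ∈ Subgroup.closure {x, y} := Subgroup.subset_closure (by simp)
  have hy : y ∈ Subgroup.closure {x, y} := Subgroup.subset_closure (by simp)
  rw [eq_top_iff]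
  intro g _
  have hstar : ∀ k : Fin 7, k ≠ 0 →
      swap 0 1 * swap 0 k ∈ (Subgroup.closure {x, y}).map (alternatingGroup (Fin 7)).subtype := by
    intro k hk
    obtain ⟨l, hl⟩ := h k hk
    rw [← hl]
    refine ⟨(l.map (![x, x⁻¹, y, y⁻¹] : Fin 4 → A7)).prod, Subgroup.list_prod_mem _ fun a ha => ?_, rfl⟩
    obtain ⟨i, -, rfl⟩ := List.mem_map.1 ha
    fin_cases i
    · exact hx
    · exact Subgroup.inv_mem _ hx
    · exact hy
    · exact Subgroup.inv_mem _ hy
  obtain ⟨a, ha, ha'⟩ := H952.F4.Gen.mem_of_star (n := 5)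
    ((Subgroup.closure {x, y}).map (alternatingGroup (Fin 7)).subtype) (by
      rintro _ ⟨a, -, rfl⟩
      exact a.2) hstar g.2
  have : a = g := Subtype.ext ha'
  rw [← this]
  exact ha

theorem gen_st : Subgroup.closure {s7, t7} = ⊤ := by
  refine closure_top fun k hk => ?_
  fin_cases k
  · exact absurd rfl hk
  · exact ⟨[], by decide +kernel⟩
  · exact ⟨[3], by decide +kernel⟩
  · exact ⟨[0, 3, 1], by decide +kernel⟩
  · exact ⟨[0, 0, 3, 1, 1], by decide +kernel⟩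
  · exact ⟨[1, 1, 3, 0, 0], by decide +kernel⟩
  · exact ⟨[1, 3, 0], by decide +kernel⟩

theorem gen_pc : Subgroup.closure {p7, s7 * t7} = ⊤ := by
  refine closure_top fun k hk => ?_
  fin_cases k
  · exact absurd rfl hk
  · exact ⟨[], by decide +kernel⟩
  · exact ⟨[0, 2, 0, 2], by decide +kernel⟩
  · exact ⟨[2, 0, 2, 0], by decide +kernel⟩
  · exact ⟨[2, 0, 3, 0, 3, 0, 2, 0], by decide +kernel⟩
  · exact ⟨[2, 0, 3, 0, 2, 2, 0, 3, 0, 2], by decide +kernel⟩
  · exact ⟨[0, 2, 0, 3, 0, 3, 0, 2], by decide +kernel⟩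

/-! ### lifts -/

section Grp

variable {F : Type u} [Field F] [Finite F] {φ : A7 →* ↥(chevE6.group F)}

omit [Finite F] in
/-- a subgroup generated by lifts of generators -/
theorem exists_lift {x y : ↥(Zgrp F)} {x0 y0 : A7} (hx : ad F x = φ x0) (hy : ad F y = φ y0)
    (hg : Subgroup.closure {x0, y0} = ⊤) {g : ↥(Zgrp F)} (hgr : ad F g ∈ φ.range) :
    ∃ k ∈ Subgroup.closure {x, y}, ad F k = ad F g := by
  have h1 : (Subgroup.closure {x, y}).map (ad F) = φ.range := by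
    rw [MonoidHom.map_closure, Set.image_pair, hx, hy, MonoidHom.range_eq_map, ← hg, MonoidHom.map_closure,
      Set.image_pair]
  rw [← h1] at hgr
  exact hgr

theorem z_mem {ω : Fˣ} (hc : Cover φ ω) {x y : ↥(Zgrp F)} {x0 y0 : A7} (hx : ad F x = φ x0) (hy : ad F y = φ y0)
    (hg : Subgroup.closure {x0, y0} = ⊤) : ∃ z ∈ Subgroup.closure {x, y}, (z : GL I27 F) = scal ω := by
  obtain ⟨h1, h3, z, hz, hzm⟩ := hc
  refine ⟨z, ?_, hz⟩
  refine (Subgroup.commutator_le.2 ?_ : ⁅φ.range.comap (ad F), φ.range.comap (ad F)⁆ ≤ Subgroup.closure {x, y}) hzm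
  intro g hg1 h hh1
  obtain ⟨k, hk, hkg⟩ := exists_lift hx hy hg (Subgroup.mem_comap.1 hg1)
  obtain ⟨l, hl, hlh⟩ := exists_lift hx hy hg (Subgroup.mem_comap.1 hh1)
  have e1 : ad F (k⁻¹ * g) = 1 := by rw [map_mul, map_inv, hkg, inv_mul_cancel]
  have e2 : ad F (l⁻¹ * h) = 1 := by rw [map_mul, map_inv, hlh, inv_mul_cancel]
  have c1 := Cov.ker_comm e1
  have c2 := Cov.ker_comm e2
  set u := k⁻¹ * g with hu
  set w := l⁻¹ * h with hw
  have eg : g = k * u := by rw [hu, mul_inv_cancel_left]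
  have eh : h = l * w := by rw [hw, mul_inv_cancel_left]
  have hcomm : g * h * g⁻¹ * h⁻¹ = k * l * k⁻¹ * l⁻¹ := by
    rw [eg, eh]
    have c1' : ∀ r, u * r = r * u := fun r => (c1 r).symm
    have c2' : ∀ r, w * r = r * w := fun r => (c2 r).symm
    have c1i : ∀ r, u⁻¹ * r = r * u⁻¹ := fun r => by
      rw [inv_mul_eq_iff_eq_mul, ← mul_assoc, c1', mul_inv_cancel_right]
    calc k * u * (l * w) * (k * u)⁻¹ * (l * w)⁻¹
        = k * (u * l) * w * (u⁻¹ * k⁻¹) * (w⁻¹ * l⁻¹) := by group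
      _ = k * (l * u) * w * (k⁻¹ * u⁻¹) * (w⁻¹ * l⁻¹) := by rw [c1', c1i]
      _ = k * l * (u * (w * k⁻¹)) * u⁻¹ * (w⁻¹ * l⁻¹) := by group
      _ = k * l * (u * (k⁻¹ * w)) * u⁻¹ * (w⁻¹ * l⁻¹) := by rw [c2']
      _ = k * l * (u * (k⁻¹ * w) * u⁻¹) * (w⁻¹ * l⁻¹) := by group
      _ = k * l * ((k⁻¹ * w) * u * u⁻¹) * (w⁻¹ * l⁻¹) := by rw [c1']
      _ = k * l * k⁻¹ * l⁻¹ := by group
  show g * h * g⁻¹ * h⁻¹ ∈ Subgroup.closure {x, y}
  rw [hcomm]
  exact mul_mem (mul_mem (mul_mem hk hl) (inv_mem hk)) (inv_mem hl)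

omit [Finite F] in
/-- the elements fixing a vector form a subgroup -/
theorem fix_closure {G : Type*} [Group G] {ρ : Representation F G (I27 → F)} {x y : G} {v : I27 → F} (hx : ρ x v = v)
    (hy : ρ y v = v) {g : G} (hg : g ∈ Subgroup.closure {x, y}) : ρ g v = v := by
  induction hg using Subgroup.closure_induction with
  | mem u hu =>
    rcases hu with rfl | rfl
    · exact hx
    · exact hy
  | one => rw [map_one, Module.End.one_apply]
  | mul a b _ _ ha hb => rw [map_mul, Module.End.mul_apply, hb, ha]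
  | inv a _ ha =>
    nth_rw 1 [← ha]
    rw [← Module.End.mul_apply, ← map_mul, inv_mul_cancel, map_one, Module.End.one_apply]

omit [Finite F] in
theorem stab_closure {G : Type*} [Group G] {ρ : Representation F G (I27 → F)} {x y : G} {W : Submodule F (I27 → F)}
    (hx : ∀ w ∈ W, ρ x w ∈ W) (hy : ∀ w ∈ W, ρ y w ∈ W) {g : G} (hg : g ∈ Subgroup.closure {x, y}) :
    ∀ w ∈ W, ρ g w ∈ W := by
  induction hg using Subgroup.closure_induction with
  | mem u hu =>
    rcases hu with rfl | rfl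
    · exact hx
    · exact hy
  | one => intro w hw; rw [map_one, Module.End.one_apply]; exact hw
  | mul a b _ _ ha hb => intro w hw; rw [map_mul, Module.End.mul_apply]; exact ha _ (hb _ hw)
  | inv a _ ha =>
    intro w hw
    have hinj : Function.Injective ((ρ a).restrict ha) := by
      intro p q hpq
      have h1 : ρ a (p : I27 → F) = ρ a (q : I27 → F) := congrArg Subtype.val hpq
      have h2 := congrArg (ρ a⁻¹) h1
      rw [← Module.End.mul_apply, ← map_mul, inv_mul_cancel, map_one, Module.End.one_apply,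
        ← Module.End.mul_apply, ← map_mul, inv_mul_cancel, map_one, Module.End.one_apply] at h2
      exact Subtype.ext h2
    obtain ⟨q, hq⟩ := (LinearMap.injective_iff_surjective.1 hinj) ⟨w, hw⟩
    have h1 : ρ a (q : I27 → F) = w := congrArg Subtype.val hq
    rw [← h1, ← Module.End.mul_apply, ← map_mul, inv_mul_cancel, map_one, Module.End.one_apply]
    exact q.2

theorem pd : PD (V F) (V' F) := ⟨Act.tf_act, Act.sh_act, Act.sh_act'⟩

/-- no vectors fixed by a pair of lifts of generators -/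
theorem no_fix {ω : Fˣ} (hc : Cover φ ω) {x y : ↥(Zgrp F)} {x0 y0 : A7} (hx : ad F x = φ x0) (hy : ad F y = φ y0)
    (hg : Subgroup.closure {x0, y0} = ⊤) :
    es (V F x) 1 ⊓ es (V F y) 1 = ⊥ ∧ es (V' F x) 1 ⊓ es (V' F y) 1 = ⊥ := by
  obtain ⟨z, hz, hzs⟩ := z_mem hc hx hy hg
  have h1 : (ω : F) ≠ 1 := fun h => hc.1 (Units.ext h)
  have h2 : ((ω⁻¹ : Fˣ) : F) ≠ 1 := fun h => hc.1 (inv_eq_one.1 (Units.ext h))
  constructor
  · rw [eq_bot_iff]
    rintro v ⟨hv1, hv2⟩
    have e1 := Module.End.mem_eigenspace_iff.1 hv1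
    have e2 := Module.End.mem_eigenspace_iff.1 hv2
    rw [one_smul] at e1 e2
    have e3 := fix_closure (ρ := V F) e1 e2 hz
    rw [H931.E6.V_scal hzs] at e3
    have e4 : ((ω : F) - 1) • v = 0 := by rw [sub_smul, e3, one_smul, sub_self]
    exact (smul_eq_zero.1 e4).resolve_left (sub_ne_zero.2 h1)
  · rw [eq_bot_iff]
    rintro v ⟨hv1, hv2⟩
    have e1 := Module.End.mem_eigenspace_iff.1 hv1
    have e2 := Module.End.mem_eigenspace_iff.1 hv2
    rw [one_smul] at e1 e2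
    have e3 := fix_closure (ρ := V' F) e1 e2 hz
    rw [H931.E6.V'_scal hzs] at e3
    have e4 : (((ω⁻¹ : Fˣ) : F) - 1) • v = 0 := by rw [sub_smul, e3, one_smul, sub_self]
    exact (smul_eq_zero.1 e4).resolve_left (sub_ne_zero.2 h2)

/-- Scott's lemma for two elements -/
theorem scott_two (x y : ↥(Zgrp F)) : ev (V F x) 1 + ev (V F y) 1 + ev (V F (x * y)) 1 ≤
    27 + finrank F ↥(es (V F x) 1 ⊓ es (V F y) 1) + finrank F ↥(es (V' F x) 1 ⊓ es (V' F y) 1) := by
  let K := Subgroup.closure {x, y}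
  have hx : x ∈ K := Subgroup.subset_closure (by simp)
  have hy : y ∈ K := Subgroup.subset_closure (by simp)
  have hgen : Subgroup.closure {(⟨x, hx⟩ : ↥K), ⟨y, hy⟩} = ⊤ := by
    have h1 : (Subgroup.closure {(⟨x, hx⟩ : ↥K), ⟨y, hy⟩}).map K.subtype = K := by
      rw [MonoidHom.map_closure, Set.image_pair]
      rfl
    apply Subgroup.map_injective K.subtype_injective
    rw [h1, ← MonoidHom.range_eq_map, Subgroup.range_subtype]
  have h := (pd (F := F)).comp K.subtype |>.scott hgen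
  have e1 : Representation.invariants (MonoidHom.comp (V F) K.subtype) ≤ es (V F x) 1 ⊓ es (V F y) 1 := by
    intro v hv
    rw [Representation.mem_invariants] at hv
    exact ⟨Module.End.mem_eigenspace_iff.2 ((hv ⟨x, hx⟩).trans (one_smul F v).symm),
      Module.End.mem_eigenspace_iff.2 ((hv ⟨y, hy⟩).trans (one_smul F v).symm)⟩
  have e2 : Representation.invariants (MonoidHom.comp (V' F) K.subtype) ≤ es (V' F x) 1 ⊓ es (V' F y) 1 := by
    intro v hv
    rw [Representation.mem_invariants] at hv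
    exact ⟨Module.End.mem_eigenspace_iff.2 ((hv ⟨x, hx⟩).trans (one_smul F v).symm),
      Module.End.mem_eigenspace_iff.2 ((hv ⟨y, hy⟩).trans (one_smul F v).symm)⟩
  have h1 := Submodule.finrank_mono e1
  have h2 := Submodule.finrank_mono e2
  have h3 : ev ((MonoidHom.comp (V F) K.subtype) ⟨x, hx⟩) 1 = ev (V F x) 1 := rfl
  have h4 : ev ((MonoidHom.comp (V F) K.subtype) ⟨y, hy⟩) 1 = ev (V F y) 1 := rfl
  have h5 : ev ((MonoidHom.comp (V F) K.subtype) (⟨x, hx⟩ * ⟨y, hy⟩)) 1 = ev (V F (x * y)) 1 := rfl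
  rw [h3, h4, h5] at h
  omega

/-- conjugation relations lift to elements of order prime to 3 -/
theorem conj_lift {x g : ↥(Zgrp F)} {x0 g0 : A7} (hx : ad F x = φ x0) (hg : ad F g = φ g0) {m k : ℕ}
    (hm : Nat.Coprime m 3) (hxm : x ^ m = 1) (h : g0 * x0 * g0⁻¹ = x0 ^ k) : g * x * g⁻¹ = x ^ k := by
  have h1 : ad F (g * x * g⁻¹ * (x ^ k)⁻¹) = 1 := by
    rw [map_mul, map_mul, map_mul, map_inv, map_inv, map_pow, hx, hg, ← map_inv, ← map_mul, ← map_mul, h, map_pow,
      mul_inv_cancel]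
  set w := g * x * g⁻¹ * (x ^ k)⁻¹ with hw
  have h2 : g * x * g⁻¹ = w * x ^ k := by rw [hw, inv_mul_cancel_right]
  have h3 := Cov.ker_pow h1
  have h4 : w ^ m = 1 := by
    have h5 : (g * x * g⁻¹) ^ m = 1 := by rw [conj_pow, hxm, mul_one, mul_inv_cancel]
    have hcm : Commute w (x ^ k) := (Cov.ker_comm h1 (x ^ k)).symm
    rw [h2, hcm.mul_pow, ← pow_mul, mul_comm k m, pow_mul, hxm, one_pow, mul_one] at h5
    exact h5
  have h5 : w ^ Nat.gcd m 3 = 1 := by rw [pow_gcd_eq_one]; exact ⟨h4, h3⟩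
  rw [hm, pow_one] at h5
  rw [h2, h5, one_mul]

variable [CharP F 2]

theorem two_zero : (2 : F) = 0 := by
  have := CharP.cast_eq_zero F 2
  exact_mod_cast this

/-- elements of order 5 -/
theorem ev_five (hφ : Function.Injective φ) {S : ↥(Zgrp F)} (hS : ad F S = φ s7) (S5 : S ^ 5 = 1) :
    ev (V F S) 1 = 7 := by
  have hne : S ≠ 1 := by
    rintro rfl
    rw [map_one] at hS
    exact s7_ne (hφ (hS.symm.trans (map_one φ).symm))
  obtain ⟨g, hg⟩ := ad_surjective (F := F) (φ r7)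
  exact ((Tor.tab (F := F) 2).five_rat (by norm_num) S hne S5 ⟨g, conj_lift hS hg (by norm_num) S5 r7_s7⟩).1

/-- elements of order 6 -/
theorem ev_six (hφ : Function.Injective φ) {ω : Fˣ} (hc : Cover φ ω) {g : ↥(Zgrp F)}
    (hg : ad F g = φ (p7 * (s7 * t7))) : 5 ≤ ev (V F g) 1 := by
  have h2 := two_zero (F := F)
  obtain ⟨h3, h9, -⟩ := Cov.type_thirty (Or.inr rfl) hφ hc g7_ord (x := g ^ 4) (by rw [map_pow, hg, map_pow])
  have hw : ad F (g ^ 6) = 1 := by rw [map_pow, hg, ← map_pow, g7_six, map_one]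
  have hw3 := Cov.ker_pow hw
  have hw2 : (g ^ 6) ^ 2 = 1 := by
    rw [← pow_mul]
    rw [← pow_mul] at h3
    exact h3
  have hw1 : g ^ 6 = 1 := by
    have : (g ^ 6) ^ 3 = (g ^ 6) ^ 2 * g ^ 6 := pow_succ _ _
    rw [hw3, hw2, one_mul] at this
    exact this.symm
  have hm : ∀ a b v, V F a (V F b v) = V F (a * b) v := fun a b v => by rw [map_mul, Module.End.mul_apply]
  have hone : ∀ v, V F 1 v = v := fun v => by rw [map_one, Module.End.one_apply]
  have h := half_fix h2 (τ := V F (g ^ 3)) (W := es (V F (g ^ 4)) 1) (fun v => by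
    rw [hm, ← pow_add, hw1, hone]) (fun w hw' => by
    show _ ∈ Module.End.eigenspace _ _
    have h4 := Module.End.mem_eigenspace_iff.1 hw'
    rw [Module.End.mem_eigenspace_iff, hm, ← pow_add, show 4 + 3 = 3 + 4 from rfl, pow_add, ← hm, h4, map_smul])
  have h4 : es (V F (g ^ 4)) 1 ⊓ es (V F (g ^ 3)) 1 ≤ es (V F g) 1 := by
    rintro v ⟨hv1, hv2⟩
    have e1 := Module.End.mem_eigenspace_iff.1 hv1
    have e2 := Module.End.mem_eigenspace_iff.1 hv2
    rw [one_smul] at e1 e2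
    show v ∈ Module.End.eigenspace _ _
    rw [Module.End.mem_eigenspace_iff, one_smul]
    nth_rw 1 [← e2]
    rw [hm, ← pow_succ', e1]
  have h5 := Submodule.finrank_mono h4
  have h6 : finrank F ↥(es (V F (g ^ 4)) 1) = 9 := h9
  have h7 : ev (V F g) 1 = finrank F ↥(es (V F g) 1) := rfl
  omega

/-- elements of order 7 -/
theorem ev_seven (hφ : Function.Injective φ) {ω : Fˣ} (hc : Cover φ ω) {S T : ↥(Zgrp F)} (hS : ad F S = φ s7)
    (hT : ad F T = φ t7) (ST7 : (S * T) ^ 7 = 1) (yz : yw S T * (S * T) = (S * T) ^ 2 * yw S T) :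
    ev (V F (S * T)) 1 ≤ 5 := by
  have hST : ad F (S * T) = φ (s7 * t7) := by rw [map_mul, hS, hT, map_mul]
  have hne : S * T ≠ 1 := by
    intro h
    rw [h, map_one] at hST
    exact c7_ne (hφ (hST.symm.trans (map_one φ).symm))
  rcases (Tor.tab (F := F) 2).seven_rat (by norm_num) (S * T) hne ST7 ⟨yw S T, by rw [yz, mul_inv_cancel_right]⟩ with
    h | h | h
  · exfalso
    obtain ⟨g, hg⟩ := ad_surjective (F := F) (φ p7)
    have hw : ad F (g * g) = 1 := by rw [map_mul, hg, ← map_mul, p7_sq, map_one]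
    have hc1 := Cov.ker_comm hw g
    have hw3 := Cov.ker_pow hw
    set P := g * (g * g) with hP
    have hPP : P * P = 1 := by
      rw [← hw3, hP]
      simp only [pow_succ, pow_zero, one_mul, mul_assoc]
    have hPa : ad F P = φ p7 := by rw [hP, map_mul, hw, mul_one, hg]
    have f1 := Tor.two_two P hPP
    have f2 := ev_six hφ hc (g := P * (S * T)) (by rw [map_mul, hPa, hST, ← map_mul])
    have f3 := scott_two P (S * T)
    obtain ⟨e1, e2⟩ := no_fix hc hPa hST gen_pc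
    rw [e1, e2, finrank_bot, h.1] at f3
    omega
  · omega
  · omega

theorem ev_dual_one (g : ↥(Zgrp F)) : ev (V' F g) 1 = ev (V F g) 1 := by
  have h := Act.ev_dual g (μ := 1) one_ne_zero
  rwa [inv_one] at h

/-- **the dimensions of the spaces fixed by the group of order 21** -/
theorem dimD (hφ : Function.Injective φ) {ω : Fˣ} (hc : Cover φ ω) {S T : ↥(Zgrp F)} (hS : ad F S = φ s7)
    (hT : ad F T = φ t7) (ST7 : (S * T) ^ 7 = 1) (y3 : yw S T ^ 3 = 1)
    (yz : yw S T * (S * T) = (S * T) ^ 2 * yw S T) :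
    finrank F ↥(VD (V F) S T) ≤ 1 ∧ finrank F ↥(VD (V' F) S T) ≤ 1 := by
  have h7 := ev_seven hφ hc hS hT ST7 yz
  have hy : ad F (yw S T) = φ (yw s7 t7) := by
    unfold yw
    simp only [map_mul, map_inv, hS, hT]
  obtain ⟨-, h9, -⟩ := Cov.type_thirty (Or.inr rfl) hφ hc yw7_ord hy
  have h1 := fix21 (V F) (two_zero (F := F)) ST7 y3 yz
  have h2 := fix21 (V' F) (two_zero (F := F)) ST7 y3 yz
  rw [ev_dual_one, ev_dual_one] at h2
  rw [H905.E6T.finrank27, h9] at h1 h2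
  constructor
  · show finrank F ↥(es (V F (S * T)) 1 ⊓ es (V F (yw S T)) 1) ≤ 1
    omega
  · show finrank F ↥(es (V' F (S * T)) 1 ⊓ es (V' F (yw S T)) 1) ≤ 1
    omega

/-- **the dimensions of the spaces fixed by the symmetric group of degree 5** -/
theorem dimX (hφ : Function.Injective φ) {S a : ↥(Zgrp F)} (hS : ad F S = φ s7) (S5 : S ^ 5 = 1) (a2 : a * a = 1)
    (b4 : (a * S) ^ 4 = 1) : 3 ≤ finrank F ↥(X (V F) S a) + finrank F ↥(X (V' F) S a) := by
  have h1 := scott_two a S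
  have h2 := Tor.two_two a a2
  have h3 := Tor.two_four (a * S) b4
  have h4 := ev_five hφ hS S5
  have e1 : X (V F) S a = es (V F a) 1 ⊓ es (V F S) 1 := inf_comm _ _
  have e2 : X (V' F) S a = es (V' F a) 1 ⊓ es (V' F S) 1 := inf_comm _ _
  rw [e1, e2]
  omega

omit [CharP F 2] in
/-- **no totally singular stable subspaces of small dimension** -/
theorem nots {H : Subgroup ↥(chevE6.group F)} (hH : Sit H 7 φ) {ω : Fˣ} (hc : Cover φ ω) {S T : ↥(Zgrp F)}
    (hS : ad F S = φ s7) (hT : ad F T = φ t7) {ρ : Representation F ↥(Zgrp F) (I27 → F)} (hρ : ρ = V F ∨ ρ = V' F)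
    {W : Submodule F (I27 → F)} (hWS : ∀ w ∈ W, ρ S w ∈ W) (hWT : ∀ w ∈ W, ρ T w ∈ W) (hW0 : W ≠ ⊥)
    (hW6 : finrank F ↥W ≤ 6) : ¬ TS W := by
  have hφ := hH.inj
  -- `W` is stable under the preimage
  have hker : ∀ c : ↥(Zgrp F), ad F c = 1 → ∀ w ∈ W, ρ c w ∈ W := by
    intro c hc1 w hw
    obtain ⟨e, -, he⟩ := (Act.ad_eq_one_iff c).1 hc1
    rcases hρ with rfl | rfl
    · rw [H931.E6.V_scal he]
      exact W.smul_mem _ hw
    · rw [H931.E6.V'_scal he]
      exact W.smul_mem _ hw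
  have hst : Stab ρ φ.range W := by
    intro g hg w hw
    obtain ⟨k, hk, hkg⟩ := exists_lift hS hT gen_st hg
    have e1 : ad F (k⁻¹ * g) = 1 := by rw [map_mul, map_inv, hkg, inv_mul_cancel]
    have e2 : g = k * (k⁻¹ * g) := by rw [mul_inv_cancel_left]
    rw [e2, map_mul, Module.End.mul_apply]
    exact stab_closure hWS hWT hk _ (hker _ e1 w hw)
  -- the dimension is divisible by 3
  obtain ⟨x, hx⟩ := ad_surjective (F := F) (φ t7)
  obtain ⟨y, hy⟩ := ad_surjective (F := F) (φ u7)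
  have hmem : ∀ {g : ↥(Zgrp F)} {g0 : A7}, ad F g = φ g0 → ∀ w ∈ W, ρ g w ∈ W := fun {g g0} hg w hw =>
    hst g ⟨g0, hg.symm⟩ w hw
  have hcom : ∃ c : Fˣ, c ≠ 1 ∧ c ^ 3 = 1 ∧ ((x * y * x⁻¹ * y⁻¹ : ↥(Zgrp F)) : GL I27 F) = scal c := by
    rcases Cov.not_comm (Or.inr rfl) hφ hc (a := t7) (b := u7) (by decide +kernel) (by decide +kernel)
      (by
        intro i
        revert i
        decide +kernel) hx hy with h | h
    · exact ⟨ω, hc.1, hc.2.1, h.2⟩
    · exact ⟨ω⁻¹, inv_ne_one.2 hc.1, by rw [inv_pow, hc.2.1, inv_one], h.2⟩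
  obtain ⟨c, hc1, hc3, hcs⟩ := hcom
  have hxy : x * y = (x * y * x⁻¹ * y⁻¹) * (y * x) := by group
  have h3 : 3 ∣ finrank F ↥W := by
    have hcomm : ∃ e : F, e ≠ 1 ∧ e ^ 3 = 1 ∧ ∀ v, ρ x (ρ y v) = e • ρ y (ρ x v) := by
      rcases hρ with rfl | rfl
      · refine ⟨(c : F), fun h => hc1 (Units.ext h), by rw [← Units.val_pow_eq_pow_val, hc3, Units.val_one], fun v => ?_⟩
        rw [← Module.End.mul_apply, ← map_mul, hxy, map_mul, Module.End.mul_apply, H931.E6.V_scal hcs, map_mul,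
          Module.End.mul_apply]
      · refine ⟨((c⁻¹ : Fˣ) : F), fun h => hc1 (inv_eq_one.1 (Units.ext h)), by
          rw [← Units.val_pow_eq_pow_val, inv_pow, hc3, inv_one, Units.val_one], fun v => ?_⟩
        rw [← Module.End.mul_apply, ← map_mul, hxy, map_mul, Module.End.mul_apply, H931.E6.V'_scal hcs, map_mul,
          Module.End.mul_apply]
    obtain ⟨e, he1, he3, he⟩ := hcomm
    exact three_dvd he1 he3 he (hmem hx) (hmem (g := x⁻¹) (g0 := t7⁻¹) (by rw [map_inv, hx, map_inv])) (hmem hy)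
      (hmem (g := y⁻¹) (g0 := u7⁻¹) (by rw [map_inv, hy, map_inv]))
  have hpos : 0 < finrank F ↥W := Submodule.one_le_finrank_iff.2 hW0
  obtain ⟨m, hm⟩ := h3
  have hm12 : m = 1 ∨ m = 2 := by omega
  rcases hm12 with rfl | rfl
  · exact hH.no_three (Or.inl (by norm_num)) ρ hρ W hst hm
  · exact hH.no_six ρ hρ W hst hm

/-- **Task A2** -/
theorem numerics {H : Subgroup ↥(chevE6.group F)} (hH : Sit H 7 φ) {ω : Fˣ} (hc : Cover φ ω) {s t : A7}
    (hs : (s : Perm (Fin 7)) = c[2, 3, 4, 5, 6]) (ht : (t : Perm (Fin 7)) = c[0, 1, 2]) {S T a : ↥(Zgrp F)}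
    (hS : ad F S = φ s) (hT : ad F T = φ t) (S5 : S ^ 5 = 1) (ST7 : (S * T) ^ 7 = 1) (a2 : a * a = 1)
    (b4 : (a * S) ^ 4 = 1) (y3 : yw S T ^ 3 = 1) (yz : yw S T * (S * T) = (S * T) ^ 2 * yw S T) :
    3 ≤ finrank F ↥(X (V F) S a) + finrank F ↥(X (V' F) S a) ∧
    finrank F ↥(VD (V F) S T) ≤ 1 ∧ finrank F ↥(VD (V' F) S T) ≤ 1 ∧
    7 ≤ ev (V F S) 1 ∧ 7 ≤ ev (V' F S) 1 ∧
    (∀ W : Submodule F (I27 → F), (∀ w ∈ W, V F S w ∈ W) → (∀ w ∈ W, V F T w ∈ W) → W ≠ ⊥ → finrank F ↥W ≤ 6 →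
      ¬ TS W) ∧
    (∀ W : Submodule F (I27 → F), (∀ w ∈ W, V' F S w ∈ W) → (∀ w ∈ W, V' F T w ∈ W) → W ≠ ⊥ → finrank F ↥W ≤ 6 →
      ¬ TS W) := by
  have hs' : s = s7 := Subtype.ext hs
  have ht' : t = t7 := Subtype.ext ht
  subst hs' ht'
  have h5 := ev_five hH.inj hS S5
  obtain ⟨d1, d2⟩ := dimD hH.inj hc hS hT ST7 y3 yz
  exact ⟨dimX hH.inj hS S5 a2 b4, d1, d2, h5.ge, by rw [ev_dual_one]; exact h5.ge,
    fun W h1 h2 h3 h4 => nots hH hc hS hT (Or.inl rfl) h1 h2 h3 h4,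
    fun W h1 h2 h3 h4 => nots hH hc hS hT (Or.inr rfl) h1 h2 h3 h4⟩

end Grp

end Cfsg.Agent.H251.S7
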